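import Cfsg.Agent.XT.Chk
import Cfsg.Agent.Bt.Res
import Cfsg.Agent.J23.Syl

/-! Bounds for normalisers from numbers of fixed points. -/

set_option autoImplicit false

namespace CF.XT

open CF.Comp CF.Bt CF.Loc CF.LX Subgroup

variable {G Ω : Type*} [Group G] [MulAction G Ω] {n k : ℕ} {D : Dom Ω n} {nets : List Net} {f : ℕ → G}
  {c : List Lvl}

/-- transport of a model along an isomorphism -/
theorem exact_equiv {K : Type*} [Group K] (hE : Exact D nets f c ⊤) (e : G ≃* K) :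
    ∃ a : MulAction K Ω, @Exact K Ω _ a n D nets (fun i => e (f i)) c ⊤ := by
  have := Exact.finite_top hE
  have := Finite.of_equiv _ e.toEquiv
  let a := MulAction.compHom Ω e.symm.toMonoidHom
  refine ⟨a, ⟨hE.reps.wf, fun i j hj => ?_⟩, hE.lt, hE.ok, inferInstance,
    fun _ _ => trivial, ?_⟩
  · exact (congrArg (· • D.pt j) (e.symm_apply_apply _)).trans (hE.reps.act i j hj)
  · rw [card_top, ← Nat.card_congr e.toEquiv, ← card_top]; exact hE.le

theorem exists_fam (hE : Exact D nets f c ⊤) {p a m : ℕ} [Fact p.Prime] {ws : List (List ℕ)}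
    (h : Nat.card (clo f ws) = p ^ a) (hG : Nat.card G = p ^ a * m) (hm : ¬ p ∣ m) (P : Sylow p G) :
    ∃ (b : MulAction G Ω) (g : ℕ → G), @Exact G Ω _ b n D nets g c ⊤ ∧ clo g ws = P := by
  have := Exact.finite_top hE
  obtain ⟨S, hS⟩ := J23.exists_sylow_eq h hG hm
  obtain ⟨u, e⟩ := J23.sylow_cj S P
  obtain ⟨b, k⟩ := exact_equiv hE (MulAut.conj u)
  exact ⟨b, _, k, (map_clo (MulAut.conj u).toMonoidHom f ws).symm.trans (hS ▸ e.eq_map.symm)⟩

theorem ge_card (hE : Exact D nets f c ⊤) {c' : List Lvl} {s : ℕ} (ok : geOK nets n c' s = true) {H : Subgroup G}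
    (h : ∀ w ∈ cgens c', ev f w ∈ H) : s ≤ Nat.card H := by
  have := Exact.finite_top hE
  exact (Nat.le_of_ble_eq_true (and_of_rec ok).2).trans (hE.reps.chain_le hE.lt (and_of_rec ok).1 h)

theorem mem_cent_clo {ws : List (List ℕ)} {x : G} (h : ∀ w ∈ ws, x * ev f w = ev f w * x) : x ∈ 𝐂(clo f ws) :=
  fun _ hy => mem_c1.1 ((clo_le (H := 𝐂₁(x))).2 (fun w hw => mem_c1.2 (h w hw).symm) hy)

theorem exists_cyc {x : G} {m : ℕ} (h : orderOf x = m) :
    ∃ α : Multiplicative (ZMod m) →* G, Function.Injective α ∧ α.range = zpowers x :=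
  J23.exists_inj_of_equiv ⟨mulEquivOfCyclicCardEq ((Nat.card_zpowers x).trans (h.trans (Nat.card_zmod m).symm))⟩

/-- the number of fixed points -/
noncomputable def fx (nets : List Net) (n k : ℕ) (w : List ℕ) : ℕ := pop n (fixS nets n k w)

theorem fx_conj (hE : Exact D nets f c ⊤) (hk : n ≤ 2 ^ k) {u w : List ℕ} {h : G}
    (e : h * ev f u * h⁻¹ = ev f w) : fx nets n k w = fx nets n k u := by
  have t : ∀ (x : G) y, y ∈ D.set (full n) → x • y ∈ D.set (full n) := fun x y =>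
    hE.reps.smul_full (Exact.le_range hE (mem_top x))
  rw [fx, fx, ← ncard_fixS hE.reps hE.lt hk, ← ncard_fixS hE.reps hE.lt hk, ← e]
  exact fix_ncard_conj h _ fun y => ⟨fun a => inv_smul_smul h y ▸ t h⁻¹ _ a, t h y⟩

/-- the elements of the group `qs` which look like `x` -/
noncomputable def stepOK (nets : List Net) (n k p : ℕ) (qs : List (List ℕ)) (x : List ℕ)
    (us : List (List ℕ × ℕ)) (L : List (List ℕ)) : Bool :=
  Bool.rec false (pcAll p (fun w => bor (lany (leq w) L)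
    (lany (fun u => Bool.rec true false (Nat.beq (fx nets n k (lapp w u.1)) u.2)) us)) qs)
    (lall (fun u => Nat.beq (fx nets n k (lapp x u.1)) u.2) us)

theorem step_spec (hE : Exact D nets f c ⊤) (hk : n ≤ 2 ^ k) {p : ℕ} (hp : p ≠ 0) {qs L : List (List ℕ)}
    (hP : Pc f p qs) {x : List ℕ} (hx : x ∈ qs) {us : List (List ℕ × ℕ)}
    (ok : stepOK nets n k p qs x us L = true) {h : G} (hn : h ∈ 𝐍(clo f qs))
    (hu : ∀ u ∈ us, h * ev f u.1 = ev f u.1 * h) : h * ev f x * h⁻¹ ∈ L.map (ev f) := by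
  obtain ⟨a, b⟩ := and_of_rec ok
  obtain ⟨w, e, b⟩ := hP.all hp b _ (conj_mem_of_mem_normalizer hn (ev_mem_clo f hx))
  rcases bor_iff.1 b with b | b
  · obtain ⟨u, hu, b⟩ := lany_iff.1 b
    exact List.mem_map.2 ⟨u, hu, leq_iff.1 b ▸ e⟩
  · obtain ⟨u, m, b⟩ := lany_iff.1 b
    rw [fx_conj hE hk (u := lapp x u.1) (h := h) (by
      rw [ev_lapp, ev_lapp, e, conj_mul_conj, conj_eq_iff.2 (hu u m)]), lall_iff.1 a u m] at b
    cases b

theorem card_step (hE : Exact D nets f c ⊤) (hk : n ≤ 2 ^ k) {p : ℕ} (hp : p ≠ 0) {qs L : List (List ℕ)}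
    (hP : Pc f p qs) {x : List ℕ} (hx : x ∈ qs) {us : List (List ℕ × ℕ)}
    (ok : stepOK nets n k p qs x us L = true) {H : Subgroup G} (hn : H ≤ 𝐍(clo f qs))
    (hu : ∀ h ∈ H, ∀ u ∈ us, h * ev f u.1 = ev f u.1 * h) {s : ℕ} (hs : Nat.card ↥(H ⊓ 𝐂₁(ev f x)) ≤ s) :
    Nat.card H ≤ L.length * s := by
  have := Exact.finite_top hE
  simpa only [List.length_map] using card_le_of_conj_mem _
    (fun h m => step_spec hE hk hp hP hx ok (hn m) (hu h m)) hs

theorem not_tw (hE : Exact D nets f c ⊤) (h0 : 0 < n) (hk : n ≤ 2 ^ k) {as bs : List (List ℕ)} {C : CD}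
    (ok : stdS nets n k c as bs [] [] C.fw C.kg C.T 0 = true) {h : G}
    (e : ∀ i, h * ev f (nth [] as i) = ev f (nth [] bs i) * h) : False := by
  have := Exact.finite_top hE
  have := ncard_tw_le hE h0 hk hE.faithful le_rfl (fun _ _ => trivial) (fun _ _ => trivial) (std_of_S ok)
  exact absurd this (not_le.2 ((Set.ncard_pos (Set.toFinite _)).2 ⟨h, trivial, e, fun _ => by
    simp [nth, set_zero]⟩))

theorem quasisimple_of [Finite G] {Z : Subgroup G} [Z.Normal] (hZ : Z ≤ center G ⊓ commutator G)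
    (hs : IsSimpleGroup (G ⧸ Z)) (hp : ¬ (Nat.card (G ⧸ Z)).Prime) : Cfsg.IsQuasisimple G := by
  have nc : ¬ IsMulCommutative (G ⧸ Z) := fun h => hp (by
    let _ : CommGroup (G ⧸ Z) := { mul_comm := h.1.1 }
    exact IsSimpleGroup.prime_card)
  have e : Z = center G := le_antisymm (hZ.trans inf_le_left) (by
    have := ((normal_of_characteristic (center G)).map _ (QuotientGroup.mk'_surjective Z)).eq_bot_or_eq_top
    rcases this with h | h
    · exact ((Subgroup.map_eq_bot_iff _).1 h).trans (QuotientGroup.ker_mk' Z).le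
    · refine absurd ⟨⟨fun a b => ?_⟩⟩ nc
      obtain ⟨a, ha, rfl⟩ := h.ge (mem_top a)
      obtain ⟨b, rfl⟩ := QuotientGroup.mk'_surjective Z b
      rw [← map_mul, ← map_mul, mem_center_iff.1 ha])
  subst e
  refine ⟨⟨?_⟩, hs⟩
  rcases ((normal_of_characteristic (commutator G)).map _
    (QuotientGroup.mk'_surjective (center G))).eq_bot_or_eq_top with h | h
  · exact absurd (Normal.quotient_commutative_iff_commutator_le.2
      (((Subgroup.map_eq_bot_iff _).1 h).trans (QuotientGroup.ker_mk' _).le)) nc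
  · have := congrArg (comap (QuotientGroup.mk' (center G))) h
    rwa [comap_map_eq, QuotientGroup.ker_mk', comap_top, sup_eq_left.2 (hZ.trans inf_le_right)] at this

end CF.XT
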