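import Mathlib

set_option autoImplicit false

namespace CF.XT.Bt

open Nat

theorem central_le (n : ℕ) (hn : 18 ≤ n)
    (h : ((Finset.range (2 * n + 1)).filter (fun p => p.Prime ∧ n < p)).card ≤ 3) :
    centralBinom n ≤ (2 * n) ^ sqrt (2 * n) * 4 ^ (2 * n / 3) := by
  have n_large : 2 < n := by omega
  have n_pos : 0 < n := by omega
  have n2_pos : 1 ≤ 2 * n := by omega
  have hs6 : 6 ≤ sqrt (2 * n) := by rw [Nat.le_sqrt]; omega
  let S := (Finset.range (2 * n + 1)).filter Nat.Prime
  let f : ℕ → ℕ := fun x => x ^ n.centralBinom.factorization x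
  have h1 : ∏ x ∈ S, f x = ∏ x ∈ Finset.range (2 * n + 1), f x := by
    refine Finset.prod_filter_of_ne fun p _ h => ?_
    contrapose h; dsimp only [f]
    rw [factorization_eq_zero_of_not_prime n.centralBinom h, _root_.pow_zero]
  rw [← n.prod_pow_factorization_centralBinom, ← h1,
    ← Finset.prod_filter_mul_prod_filter_not S (fun p => p ≤ sqrt (2 * n) ∨ n < p)]
  apply mul_le_mul'
  · refine (Finset.prod_le_prod' fun p _ => (?_ : f p ≤ 2 * n)).trans ?_
    · exact pow_factorization_choose_le (mul_pos two_pos n_pos)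
    rw [Finset.prod_const]
    refine pow_right_mono₀ n2_pos ?_
    have hsub : S.filter (fun p => p ≤ sqrt (2 * n) ∨ n < p) ⊆
        ((Finset.Icc 1 (sqrt (2 * n))) \ {1, 4, 6}) ∪
          (Finset.range (2 * n + 1)).filter (fun p => p.Prime ∧ n < p) := by
      intro x hx
      obtain ⟨hx1, hx2⟩ := Finset.mem_filter.1 hx
      obtain ⟨hx3, hx4⟩ := Finset.mem_filter.1 hx1
      rcases hx2 with hx2 | hx2
      · refine Finset.mem_union_left _ (Finset.mem_sdiff.2 ⟨Finset.mem_Icc.2 ⟨hx4.one_lt.le, hx2⟩, ?_⟩)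
        simp only [Finset.mem_insert, Finset.mem_singleton]
        rintro (rfl | rfl | rfl) <;> norm_num at hx4
      · exact Finset.mem_union_right _ (Finset.mem_filter.2 ⟨hx3, hx4, hx2⟩)
    refine (Finset.card_le_card hsub).trans ((Finset.card_union_le _ _).trans ?_)
    have h3 : ({1, 4, 6} : Finset ℕ) ⊆ Finset.Icc 1 (sqrt (2 * n)) := by
      intro x hx
      simp only [Finset.mem_insert, Finset.mem_singleton] at hx
      rw [Finset.mem_Icc]; omega
    rw [Finset.card_sdiff_of_subset h3, card_Icc]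
    have : ({1, 4, 6} : Finset ℕ).card = 3 := by decide
    omega
  · refine le_trans ?_ (primorial_le_four_pow (2 * n / 3))
    have h2 : ∏ x ∈ (S.filter (fun p => ¬ (p ≤ sqrt (2 * n) ∨ n < p))), f x =
        ∏ x ∈ (S.filter (fun p => ¬ (p ≤ sqrt (2 * n) ∨ n < p))).filter (fun p => p ≤ 2 * n / 3),
          f x := by
      refine (Finset.prod_filter_of_ne fun p hp h => ?_).symm
      contrapose h; dsimp only [f]
      obtain ⟨-, h2⟩ := Finset.mem_filter.1 hp
      rw [factorization_centralBinom_of_two_mul_self_lt_three_mul n_large (by omega) (by omega),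
        _root_.pow_zero]
    rw [h2]
    refine (Finset.prod_le_prod' fun p hp => (?_ : f p ≤ p)).trans ?_
    · obtain ⟨hp, -⟩ := Finset.mem_filter.1 hp
      obtain ⟨h1, h2⟩ := Finset.mem_filter.1 hp
      refine (pow_right_mono₀ (Finset.mem_filter.1 h1).2.one_lt.le ?_).trans (pow_one p).le
      exact Nat.factorization_choose_le_one (sqrt_lt'.mp <| by omega)
    refine Finset.prod_le_prod_of_subset_of_one_le' ?_ ?_
    · intro p hp
      obtain ⟨hp, h3⟩ := Finset.mem_filter.1 hp
      obtain ⟨h1, h2⟩ := Finset.mem_filter.1 hp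
      exact Finset.mem_filter.2 ⟨Finset.mem_range.2 (by omega), (Finset.mem_filter.1 h1).2⟩
    · exact fun p hp _ => (Finset.mem_filter.1 hp).2.one_lt.le

theorem two_primes_large (n : ℕ) (hn : 512 ≤ n) :
    ∃ p q : ℕ, p.Prime ∧ q.Prime ∧ n < p ∧ p + 3 ≤ q ∧ q ≤ 2 * n := by
  by_contra hc
  push Not at hc
  have h4 : 4 ^ n < n * n.centralBinom := Nat.four_pow_lt_mul_centralBinom n (by omega)
  have h : ((Finset.range (2 * n + 1)).filter (fun p => p.Prime ∧ n < p)).card ≤ 3 := by
    set T := (Finset.range (2 * n + 1)).filter (fun p => p.Prime ∧ n < p) with hT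
    rcases T.eq_empty_or_nonempty with h0 | h0
    · rw [h0]; simp
    · have hm := T.min'_mem h0
      have : T ⊆ Finset.Icc (T.min' h0) (T.min' h0 + 2) := by
        intro q hq
        have h1 := T.min'_le q hq
        obtain ⟨hq1, hq2, hq3⟩ := Finset.mem_filter.1 hq
        obtain ⟨hp1, hp2, hp3⟩ := Finset.mem_filter.1 hm
        rw [Finset.mem_range] at hq1
        have := hc _ q hp2 hq2 hp3
        rw [Finset.mem_Icc]; omega
      refine (Finset.card_le_card this).trans ?_
      rw [card_Icc]; omega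
  have h5 := central_le n (by omega) h
  have h6 := bertrand_main_inequality hn
  have : n * n.centralBinom ≤ 4 ^ n := by
    calc n * n.centralBinom ≤ n * ((2 * n) ^ sqrt (2 * n) * 4 ^ (2 * n / 3)) :=
          Nat.mul_le_mul_left _ h5
      _ = n * (2 * n) ^ sqrt (2 * n) * 4 ^ (2 * n / 3) := by rw [mul_assoc]
      _ ≤ 4 ^ n := h6
  omega

theorem two_primes (m : ℕ) (hm : 17 ≤ m) :
    ∃ p q : ℕ, p.Prime ∧ q.Prime ∧ m < 2 * p ∧ p + 3 ≤ q ∧ q ≤ m := by
  by_cases h1 : m ≤ 25
  · exact ⟨13, 17, by norm_num, by norm_num, by omega, by omega, by omega⟩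
  by_cases h2 : m ≤ 37
  · exact ⟨19, 23, by norm_num, by norm_num, by omega, by omega, by omega⟩
  by_cases h3 : m ≤ 61
  · exact ⟨31, 37, by norm_num, by norm_num, by omega, by omega, by omega⟩
  by_cases h4 : m ≤ 105
  · exact ⟨53, 59, by norm_num, by norm_num, by omega, by omega, by omega⟩
  by_cases h5 : m ≤ 193
  · exact ⟨97, 101, by norm_num, by norm_num, by omega, by omega, by omega⟩
  by_cases h6 : m ≤ 361
  · exact ⟨181, 191, by norm_num, by norm_num, by omega, by omega, by omega⟩
  by_cases h7 : m ≤ 697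
  · exact ⟨349, 353, by norm_num, by norm_num, by omega, by omega, by omega⟩
  by_cases h8 : m ≤ 1365
  · exact ⟨683, 691, by norm_num, by norm_num, by omega, by omega, by omega⟩
  obtain ⟨p, q, hp, hq, h9, h10, h11⟩ := two_primes_large (m / 2) (by omega)
  exact ⟨p, q, hp, hq, by omega, h10, by omega⟩

end CF.XT.Bt
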